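import Cfsg.Agent.SLClassCount.Arith

/-!
The bounds for the class numbers of `SL n q` and `PSL n q`.
-/

set_option autoImplicit false

namespace CfsgLib.SLClassCount

open CfsgLib.GLClassCount Matrix

universe u

variable {F : Type u} [Field F] [Fintype F] {n : ℕ}

theorem sl_le_psl (hn : 1 ≤ n) [NeZero n] :
    (Fintype.card F - 1) * Nat.card (ConjClasses (SpecialLinearGroup (Fin n) F)) ≤
      (Fintype.card F - 1) * (Nat.card (Subgroup.center (SpecialLinearGroup (Fin n) F)) *
        Nat.card (ConjClasses (ProjectiveSpecialLinearGroup (Fin n) F))) := by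
  classical
  rw [card_classes_sl hn, card_classes_psl hn]
  refine le_of_eq_of_le ?_ (Finset.single_le_sum (fun z _ => Nat.zero_le _)
    (Finset.mem_univ (1 : Subgroup.center (SpecialLinearGroup (Fin n) F))))
  simp

theorem center_card_eq (hn : 1 ≤ n) :
    Nat.card (Subgroup.center (SpecialLinearGroup (Fin n) F)) = Nat.gcd n (Fintype.card F - 1) := by
  have : Nonempty (Fin n) := ⟨⟨0, hn⟩⟩
  rw [CfsgLib.Classical.Linear.center_sl_card, Fintype.card_fin]

theorem lt_classes_sl (hn : 2 ≤ n) :
    Fintype.card F ^ (n - 1) < Nat.card (ConjClasses (SpecialLinearGroup (Fin n) F)) := by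
  have h1 := lt_tupleCard (q := Fintype.card F) Fintype.one_lt_card hn
  exact Nat.lt_of_mul_lt_mul_left (h1.trans_le (kk_one_le_sl (by omega)))

theorem classes_sl_le (hn : 3 ≤ n) :
    Nat.card (ConjClasses (SpecialLinearGroup (Fin n) F)) ≤
      Fintype.card F ^ (n - 1) + 3 * Fintype.card F ^ (n - 2) := by
  have : NeZero n := ⟨by omega⟩
  have hq : 2 ≤ Fintype.card F := Fintype.one_lt_card
  rcases (show 7 ≤ n ∨ n ≤ 6 by omega) with h7 | h6
  · exact le_of_mul_bound (c := 2) (by omega) hq
      ((sl_le_psl (by omega)).trans (psl_le_universal (by omega))) (universal_bound hq h7)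
  rcases (show Fintype.card F = 2 ∨ 3 ≤ Fintype.card F by omega) with h2 | h3
  · refine le_of_mul_bound (c := 2) (B := Fintype.card F ^ n) (by omega) hq ?_ ?_
    · refine ((sl_le_psl (by omega)).trans (psl_le_universal (by omega))).trans (le_of_eq ?_)
      simp [h2]
    · rw [h2]; simp
  · exact le_of_mul_bound (c := 2) (by omega) hq (sl_le_bound (by omega)) (slBound_small h3 hn h6)

theorem classes_sl_two_le : 2 * Nat.card (ConjClasses (SpecialLinearGroup (Fin 2) F)) ≤
    5 * Fintype.card F := by
  have hq : 2 ≤ Fintype.card F := Fintype.one_lt_card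
  have h := (sl_le_bound (F := F) (n := 2) (by omega)).trans (bounds_two hq).1
  generalize hX : Nat.card (ConjClasses (SpecialLinearGroup (Fin 2) F)) = X at h ⊢
  generalize Fintype.card F = q at *
  obtain ⟨N, rfl⟩ : ∃ N, q = N + 1 := ⟨q - 1, by omega⟩
  simp only [Nat.add_sub_cancel] at h ⊢
  split_ifs at h with h2
  · have : 2 ≤ N := Nat.le_of_dvd (by omega) h2
    by_contra hlt
    push_neg at hlt
    nlinarith [Nat.mul_le_mul_left N (show 5 * (N + 1) + 1 ≤ 2 * X by omega)]
  · by_contra hlt
    push_neg at hlt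
    nlinarith [Nat.mul_le_mul_left N (show 5 * (N + 1) + 1 ≤ 2 * X by omega)]

theorem classes_sl_le_five_halves (hn : 2 ≤ n) :
    2 * Nat.card (ConjClasses (SpecialLinearGroup (Fin n) F)) ≤ 5 * Fintype.card F ^ (n - 1) := by
  rcases (show n = 2 ∨ 3 ≤ n by omega) with rfl | h3
  · simpa using classes_sl_two_le (F := F)
  · have h := classes_sl_le (F := F) h3
    have hq : 2 ≤ Fintype.card F := Fintype.one_lt_card
    obtain ⟨k, rfl⟩ : ∃ k, n = k + 2 := ⟨n - 2, by omega⟩
    simp only [show k + 2 - 1 = k + 1 by omega, Nat.add_sub_cancel, pow_succ] at h ⊢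
    have := Nat.mul_le_mul_left (Fintype.card F ^ k) hq
    omega

theorem le_classes_psl (hn : 2 ≤ n) :
    Fintype.card F ^ (n - 1) ≤ Nat.gcd n (Fintype.card F - 1) *
      Nat.card (ConjClasses (ProjectiveSpecialLinearGroup (Fin n) F)) := by
  have : NeZero n := ⟨by omega⟩
  rw [← center_card_eq (by omega)]
  have hq : 2 ≤ Fintype.card F := Fintype.one_lt_card
  exact Nat.le_of_mul_le_mul_left ((lt_tupleCard hq hn).le.trans (kk_one_le_psl (by omega)))
    (show 0 < Fintype.card F - 1 by omega)

theorem classes_psl_le (hn : 2 ≤ n) :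
    Nat.gcd n (Fintype.card F - 1) * Nat.card (ConjClasses (ProjectiveSpecialLinearGroup (Fin n) F)) ≤
      Fintype.card F ^ (n - 1) + 5 * Fintype.card F ^ (n - 2) := by
  have : NeZero n := ⟨by omega⟩
  rw [← center_card_eq (by omega)]
  have hq : 2 ≤ Fintype.card F := Fintype.one_lt_card
  rcases (show n = 2 ∨ (3 ≤ n ∧ n ≤ 6) ∨ 7 ≤ n by omega) with rfl | ⟨h3, h6⟩ | h7
  · have h := (psl_le_bound (F := F) (n := 2) (by omega)).trans (bounds_two hq).2
    generalize Nat.card (Subgroup.center (SpecialLinearGroup (Fin 2) F)) *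
      Nat.card (ConjClasses (ProjectiveSpecialLinearGroup (Fin 2) F)) = X at h ⊢
    generalize Fintype.card F = q at *
    obtain ⟨N, rfl⟩ : ∃ N, q = N + 1 := ⟨q - 1, by omega⟩
    simp only [Nat.add_sub_cancel] at h ⊢
    norm_num
    split_ifs at h with h2
    · have : 2 ≤ N := Nat.le_of_dvd (by omega) h2
      by_contra hlt
      push_neg at hlt
      nlinarith [Nat.mul_le_mul_left N (show N + 7 ≤ X by omega)]
    · by_contra hlt
      push_neg at hlt
      nlinarith [Nat.mul_le_mul_left N (show N + 7 ≤ X by omega)]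
  · rcases (show Fintype.card F = 2 ∨ 3 ≤ Fintype.card F by omega) with h2 | hq3
    · refine le_of_mul_bound (c := 4) (B := Fintype.card F ^ n) hn hq ?_ ?_
      · refine (psl_le_universal (by omega)).trans (le_of_eq ?_)
        simp [h2]
      · rw [h2]; simp
    · exact le_of_mul_bound (c := 4) hn hq (psl_le_bound (by omega)) (pslBound_small hq3 h3 h6)
  · refine le_of_mul_bound (c := 4) hn hq (psl_le_universal (by omega)) ?_
    refine (universal_bound hq h7).trans ?_
    gcongr
    norm_num

end CfsgLib.SLClassCount
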