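import Cfsg.Agent.SLClassCount.Bounds

/-!
The numerical part of the bounds.
-/

set_option autoImplicit false

namespace CfsgLib.SLClassCount

open CfsgLib.GLClassCount

theorem tupleCard_mono (q n K : ℕ) : tupleCard q n K ≤ tupleCard q n (K + 1) := by
  rw [tupleCard_step]; exact Nat.le_add_right _ _

theorem lt_tupleCard {q n : ℕ} (hq : 2 ≤ q) (hn : 2 ≤ n) :
    (q - 1) * q ^ (n - 1) < tupleCard q n n := by
  have h0 : ∀ r, tupleCard q r 1 = levelCard q r := fun r => by
    rw [tupleCard, Finset.sum_eq_single r]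
    · simp [tupleCard]
    · intro b hb hne
      have : b < r := by
        have := Finset.mem_range.1 hb
        rw [Nat.div_one] at this
        omega
      simp [tupleCard]; omega
    · intro h; exact absurd (Finset.mem_range.2 (by rw [Nat.div_one]; omega)) h
  have hpos : ∀ r, 0 < levelCard q r := fun r => by
    rw [levelCard]; split_ifs
    · exact one_pos
    · exact Nat.mul_pos (by omega) (pow_pos (by omega) _)
  have h1 : tupleCard q n 1 < tupleCard q n 2 := by
    rw [show (2 : ℕ) = 1 + 1 from rfl, tupleCard_step (K := 1), if_pos (by omega)]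
    refine Nat.lt_add_of_pos_right (Nat.mul_pos (show 0 < q - 1 by omega) ?_)
    rw [shiftSum]
    refine lt_of_lt_of_le ?_ (Finset.single_le_sum
      (f := fun m => q ^ m * tupleCard q (n - (1 + 1) - (1 + 1) * m) 1)
      (fun m _ => Nat.zero_le _) (Finset.mem_range.2 (Nat.succ_pos _)))
    simp only [pow_zero, one_mul, mul_zero, Nat.sub_zero, h0]
    exact hpos _
  rw [h0, levelCard, if_neg (by omega)] at h1
  refine h1.trans_le ?_
  induction n, hn using Nat.le_induction with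
  | base => rfl
  | succ k hk ih =>
    clear ih h1
    have : ∀ K, 2 ≤ K → tupleCard q (k + 1) 2 ≤ tupleCard q (k + 1) K := fun K hK => by
      induction K, hK using Nat.le_induction with
      | base => rfl
      | succ K _ ih2 => exact ih2.trans (tupleCard_mono q (k + 1) K)
    exact this _ (by omega)

theorem tupleCard_one (q : ℕ) : tupleCard q 1 1 = q - 1 := by
  simp [tupleCard, levelCard, Finset.sum_range_succ]

theorem tupleCard_three {q : ℕ} (hq : 1 ≤ q) : tupleCard q 3 3 + q = q ^ 3 := by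
  obtain ⟨N, rfl⟩ : ∃ N, q = N + 1 := ⟨q - 1, by omega⟩
  simp [tupleCard, levelCard, Finset.sum_range_succ]
  ring

/-- Small degrees, special linear group. -/
theorem slBound_small {q n : ℕ} (hq : 3 ≤ q) (h3 : 3 ≤ n) (h6 : n ≤ 6) :
    slBound q n + q ^ (n - 2) ≤ q ^ n + 2 * (q - 1) * q ^ (n - 2) := by
  obtain ⟨N, rfl⟩ : ∃ N, q = N + 1 := ⟨q - 1, by omega⟩
  have hN : 2 ≤ N := by omega
  have k1 := tupleCard_one (N + 1)
  have k2 := tupleCard_le (q := N + 1) (by omega) 2 2
  have k3 := tupleCard_three (q := N + 1) (by omega)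
  have k4 := tupleCard_le (q := N + 1) (by omega) 4 4
  have k5 := tupleCard_le (q := N + 1) (by omega) 5 5
  have k6 := tupleCard_le (q := N + 1) (by omega) 6 6
  rw [Nat.add_sub_cancel] at k1
  simp only [Nat.add_sub_cancel, slBound]
  obtain rfl | rfl | rfl | rfl : n = 3 ∨ n = 4 ∨ n = 5 ∨ n = 6 := by omega
  · rw [show (3 : ℕ).divisors = {1, 3} from by decide]
    norm_num [wPair, kk]
    by_cases h : 3 ∣ N
    · have : 3 ≤ N := Nat.le_of_dvd (by omega) h
      simp [h]; nlinarith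
    · simp [h]; nlinarith
  · rw [show (4 : ℕ).divisors = {1, 2, 4} from by decide]
    norm_num [wPair, kk]
    by_cases h : 2 ∣ N <;> by_cases h' : 4 ∣ N
    · have : 4 ≤ N := Nat.le_of_dvd (by omega) h'
      simp [h, h']; nlinarith
    · simp [h, h']; nlinarith
    · exact absurd (dvd_trans (by norm_num) h') h
    · simp [h, h']; nlinarith
  · rw [show (5 : ℕ).divisors = {1, 5} from by decide]
    norm_num [wPair, kk]
    by_cases h : 5 ∣ N
    · have : 5 ≤ N := Nat.le_of_dvd (by omega) h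
      simp [h]; nlinarith
    · simp [h]; nlinarith
  · rw [show (6 : ℕ).divisors = {1, 2, 3, 6} from by decide]
    norm_num [wPair, kk]
    by_cases h : 2 ∣ N <;> by_cases h' : 3 ∣ N
    · have h6 : 6 ∣ N := Nat.Coprime.mul_dvd_of_dvd_of_dvd (by norm_num) h h'
      have : 6 ≤ N := Nat.le_of_dvd (by omega) h6
      simp [h, h', h6]; nlinarith
    · have h6 : ¬ 6 ∣ N := fun h6 => h' (dvd_trans (by norm_num) h6)
      simp [h, h', h6]; nlinarith
    · have h6 : ¬ 6 ∣ N := fun h6 => h (dvd_trans (by norm_num) h6)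
      have : 3 ≤ N := Nat.le_of_dvd (by omega) h'
      simp [h, h', h6]; nlinarith
    · have h6 : ¬ 6 ∣ N := fun h6 => h' (dvd_trans (by norm_num) h6)
      simp [h, h', h6]; nlinarith

/-- Small degrees, projective special linear group. -/
theorem pslBound_small {q n : ℕ} (hq : 3 ≤ q) (h3 : 3 ≤ n) (h6 : n ≤ 6) :
    pslBound q n + q ^ (n - 2) ≤ q ^ n + 4 * (q - 1) * q ^ (n - 2) := by
  obtain ⟨N, rfl⟩ : ∃ N, q = N + 1 := ⟨q - 1, by omega⟩
  have hN : 2 ≤ N := by omega
  have k1 := tupleCard_one (N + 1)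
  have k2 := tupleCard_le (q := N + 1) (by omega) 2 2
  have k3 := tupleCard_three (q := N + 1) (by omega)
  have k4 := tupleCard_le (q := N + 1) (by omega) 4 4
  have k5 := tupleCard_le (q := N + 1) (by omega) 5 5
  have k6 := tupleCard_le (q := N + 1) (by omega) 6 6
  rw [Nat.add_sub_cancel] at k1
  simp only [Nat.add_sub_cancel, pslBound]
  obtain rfl | rfl | rfl | rfl : n = 3 ∨ n = 4 ∨ n = 5 ∨ n = 6 := by omega
  · rw [show (3 : ℕ).divisors = {1, 3} from by decide]
    norm_num [wPair, wOne, kk]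
    by_cases h : 3 ∣ N
    · have : 3 ≤ N := Nat.le_of_dvd (by omega) h
      simp [h]; nlinarith
    · simp [h]; nlinarith
  · rw [show (4 : ℕ).divisors = {1, 2, 4} from by decide]
    norm_num [wPair, wOne, kk]
    by_cases h : 2 ∣ N <;> by_cases h' : 4 ∣ N
    · have : 4 ≤ N := Nat.le_of_dvd (by omega) h'
      simp [h, h']; nlinarith
    · simp [h, h']; nlinarith
    · exact absurd (dvd_trans (by norm_num) h') h
    · simp [h, h']; nlinarith
  · rw [show (5 : ℕ).divisors = {1, 5} from by decide]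
    norm_num [wPair, wOne, kk]
    by_cases h : 5 ∣ N
    · have : 5 ≤ N := Nat.le_of_dvd (by omega) h
      simp [h]; nlinarith
    · simp [h]; nlinarith
  · rw [show (6 : ℕ).divisors = {1, 2, 3, 6} from by decide]
    norm_num [wPair, wOne, kk]
    by_cases h : 2 ∣ N <;> by_cases h' : 3 ∣ N
    · have h6 : 6 ∣ N := Nat.Coprime.mul_dvd_of_dvd_of_dvd (by norm_num) h h'
      have : 6 ≤ N := Nat.le_of_dvd (by omega) h6
      simp [h, h', h6]; nlinarith
    · have h6 : ¬ 6 ∣ N := fun h6 => h' (dvd_trans (by norm_num) h6)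
      simp [h, h', h6]; nlinarith
    · have h6 : ¬ 6 ∣ N := fun h6 => h (dvd_trans (by norm_num) h6)
      have : 3 ≤ N := Nat.le_of_dvd (by omega) h'
      simp [h, h', h6]; nlinarith
    · have h6 : ¬ 6 ∣ N := fun h6 => h' (dvd_trans (by norm_num) h6)
      simp [h, h', h6]; nlinarith

theorem bounds_two {q : ℕ} (hq : 2 ≤ q) :
    slBound q 2 ≤ q ^ 2 + (if 2 ∣ q - 1 then 3 * (q - 1) else 0) ∧
    pslBound q 2 ≤ q ^ 2 + (if 2 ∣ q - 1 then 4 * (q - 1) else 0) := by
  have k1 := tupleCard_one q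
  have k2 := tupleCard_le (q := q) (by omega) 2 2
  simp only [slBound, pslBound]
  rw [show (2 : ℕ).divisors = {1, 2} from by decide]
  norm_num [wPair, wOne, kk]
  by_cases h : 2 ∣ q - 1 <;> simp [h] <;> omega

/-- From `N X` bounded to `X` bounded. -/
theorem le_of_mul_bound {q n c X B : ℕ} (hn : 2 ≤ n) (hq : 2 ≤ q)
    (hX : (q - 1) * X ≤ B) (hB : B + q ^ (n - 2) ≤ q ^ n + c * (q - 1) * q ^ (n - 2)) :
    X ≤ q ^ (n - 1) + (c + 1) * q ^ (n - 2) := by
  obtain ⟨N, rfl⟩ : ∃ N, q = N + 1 := ⟨q - 1, by omega⟩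
  obtain ⟨k, rfl⟩ : ∃ k, n = k + 2 := ⟨n - 2, by omega⟩
  simp only [Nat.add_sub_cancel, show k + 2 - 1 = k + 1 by omega] at hX hB ⊢
  refine Nat.le_of_mul_le_mul_left ?_ (show 0 < N by omega)
  set P := (N + 1) ^ k
  have e1 : (N + 1) ^ (k + 2) = P * (N + 1) * (N + 1) := by simp only [P]; ring
  have e2 : (N + 1) ^ (k + 1) = P * (N + 1) := by simp only [P]; ring
  rw [e1] at hB
  rw [e2]
  nlinarith

/-- The crude bound suffices from degree seven on. -/
theorem universal_bound {q n : ℕ} (hq : 2 ≤ q) (hn : 7 ≤ n) :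
    q ^ n + ((q - 1) ^ 3 - 1) * q ^ (n / 2) + q ^ (n - 2) ≤ q ^ n + 2 * (q - 1) * q ^ (n - 2) := by
  obtain ⟨N, rfl⟩ : ∃ N, q = N + 1 := ⟨q - 1, by omega⟩
  simp only [Nat.add_sub_cancel]
  rcases (show N = 1 ∨ 2 ≤ N by omega) with rfl | hN
  · simp
  have h1 : (N ^ 3 - 1) * (N + 1) ^ (n / 2) ≤ (N + 1) * (N + 1) ^ (n - 2) :=
    calc (N ^ 3 - 1) * (N + 1) ^ (n / 2) ≤ (N + 1) ^ 3 * (N + 1) ^ (n / 2) :=
          Nat.mul_le_mul_right _ ((Nat.sub_le _ _).trans (Nat.pow_le_pow_left (by omega) 3))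
      _ = (N + 1) ^ (3 + n / 2) := by rw [pow_add]
      _ ≤ (N + 1) ^ (n - 2 + 1) := Nat.pow_le_pow_right (by omega) (by omega)
      _ = (N + 1) * (N + 1) ^ (n - 2) := by rw [pow_succ']
  nlinarith [Nat.mul_le_mul_right ((N + 1) ^ (n - 2)) (show N + 2 ≤ 2 * N by omega)]

end CfsgLib.SLClassCount
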