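import Cfsg.Agent.SLClassCount.Classes

/-!
Bounds on the class numbers of `SL n q` and `PSL n q`.
-/

set_option autoImplicit false

open scoped Classical

namespace CfsgLib.SLClassCount

open CfsgLib.GLClassCount Matrix

universe u

variable {F : Type u} [Field F] [Fintype F]

theorem sum_orderOf_le {H : Type*} [Monoid H] [Fintype H] (T : Finset ℕ) (f w : ℕ → ℕ)
    (hT : ∀ g : H, f (orderOf g) ≠ 0 → orderOf g ∈ T)
    (hw : ∀ a ∈ T, (Finset.univ.filter fun g : H => orderOf g = a).card ≤ w a) :
    ∑ g : H, f (orderOf g) ≤ ∑ a ∈ T, w a * f a := by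
  rw [← Finset.sum_filter_of_ne (p := fun g : H => orderOf g ∈ T) fun g _ h => hT g h,
    ← Finset.sum_fiberwise_of_maps_to (t := T) (g := fun g : H => orderOf g)
      fun g hg => (Finset.mem_filter.1 hg).2]
  refine Finset.sum_le_sum fun a ha => ?_
  rw [Finset.sum_const_nat (m := f a) fun g hg => by rw [(Finset.mem_filter.1 hg).2]]
  refine Nat.mul_le_mul_right _ (le_trans (Finset.card_le_card ?_) (hw a ha))
  intro g hg
  exact Finset.mem_filter.2 ⟨Finset.mem_univ _, (Finset.mem_filter.1 hg).2⟩

/-- Bound for the number of pairs of characters of given order. -/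
def wPair (N a : ℕ) : ℕ := if a = 1 then 1 else if a ∣ N then a * a - 1 else 0

/-- Bound for the number of central elements of given order. -/
def wOne (N a : ℕ) : ℕ := if a = 1 then 1 else if a ∣ N then a - 1 else 0

theorem card_orderOf_le {H C : Type*} [Group H] [Fintype H] [CommGroup C] [Fintype C] [IsCyclic C]
    (φ : H →* C) (hφ : Function.Injective φ) (a : ℕ) :
    (Finset.univ.filter fun g : H => orderOf g = a).card ≤ wOne (Fintype.card C) a := by
  rw [wOne]
  split_ifs with h1 h2
  · refine Finset.card_le_one.2 fun x hx y hy => ?_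
    subst h1
    rw [orderOf_eq_one_iff.1 (Finset.mem_filter.1 hx).2, orderOf_eq_one_iff.1 (Finset.mem_filter.1 hy).2]
  · have ha : 0 < a := Nat.pos_of_ne_zero fun e => by
      subst e
      exact Fintype.card_ne_zero (Nat.eq_zero_of_zero_dvd h2)
    have hle := IsCyclic.card_pow_eq_one_le (α := C) ha
    have hsub : ((Finset.univ.filter fun g : H => orderOf g = a).image φ) ⊆
        (Finset.univ.filter fun c : C => c ^ a = 1).erase 1 := by
      intro c hc
      obtain ⟨g, hg, rfl⟩ := Finset.mem_image.1 hc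
      have hg' := (Finset.mem_filter.1 hg).2
      refine Finset.mem_erase.2 ⟨fun e => ?_, Finset.mem_filter.2 ⟨Finset.mem_univ _, ?_⟩⟩
      · rw [hφ (e.trans (map_one φ).symm), orderOf_one] at hg'
        exact h1 hg'.symm
      · rw [← map_pow, ← hg', pow_orderOf_eq_one, map_one]
    have := Finset.card_le_card hsub
    rw [Finset.card_image_of_injective _ hφ, Finset.card_erase_of_mem (by simp)] at this
    omega
  · rw [Nat.le_zero, Finset.card_eq_zero]
    refine Finset.filter_eq_empty_iff.2 fun g _ hg => h2 ?_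
    rw [← hg, ← orderOf_injective φ hφ]
    exact orderOf_dvd_card

theorem card_orderOf_pair_le {H C : Type*} [Group H] [Fintype H] [CommGroup C] [Fintype C]
    [IsCyclic C] (φ : H →* C) (hφ : Function.Injective φ) (a : ℕ) :
    (Finset.univ.filter fun g : H × H => orderOf g = a).card ≤ wPair (Fintype.card C) a := by
  rw [wPair]
  split_ifs with h1 h2
  · refine Finset.card_le_one.2 fun x hx y hy => ?_
    subst h1
    rw [orderOf_eq_one_iff.1 (Finset.mem_filter.1 hx).2, orderOf_eq_one_iff.1 (Finset.mem_filter.1 hy).2]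
  · have ha : 0 < a := Nat.pos_of_ne_zero fun e => by
      subst e
      exact Fintype.card_ne_zero (Nat.eq_zero_of_zero_dvd h2)
    have hle := IsCyclic.card_pow_eq_one_le (α := C) ha
    let S := Finset.univ.filter fun c : C => c ^ a = 1
    have hsub : ((Finset.univ.filter fun g : H × H => orderOf g = a).image (Prod.map φ φ)) ⊆
        (S ×ˢ S).erase 1 := by
      intro c hc
      obtain ⟨g, hg, rfl⟩ := Finset.mem_image.1 hc
      have hg' := (Finset.mem_filter.1 hg).2
      have hpow : g ^ a = 1 := by rw [← hg', pow_orderOf_eq_one]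
      refine Finset.mem_erase.2 ⟨fun e => ?_, Finset.mem_product.2 ⟨?_, ?_⟩⟩
      · have : g = 1 := Prod.ext (hφ ((congrArg Prod.fst e).trans (map_one φ).symm))
          (hφ ((congrArg Prod.snd e).trans (map_one φ).symm))
        rw [this, orderOf_one] at hg'
        exact h1 hg'.symm
      · refine Finset.mem_filter.2 ⟨Finset.mem_univ _, ?_⟩
        rw [Prod.map_fst, ← map_pow, ← Prod.pow_fst, hpow]
        simp
      · refine Finset.mem_filter.2 ⟨Finset.mem_univ _, ?_⟩
        rw [Prod.map_snd, ← map_pow, ← Prod.pow_snd, hpow]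
        simp
    have := Finset.card_le_card hsub
    rw [Finset.card_image_of_injective _ (hφ.prodMap hφ),
      Finset.card_erase_of_mem (by simp [S]), Finset.card_product] at this
    have hsq : S.card * S.card ≤ a * a := Nat.mul_le_mul hle hle
    omega
  · rw [Nat.le_zero, Finset.card_eq_zero]
    refine Finset.filter_eq_empty_iff.2 fun g _ hg => h2 ?_
    rw [← hg, Prod.orderOf, ← orderOf_injective φ hφ g.1, ← orderOf_injective φ hφ g.2]
    exact Nat.lcm_dvd orderOf_dvd_card orderOf_dvd_card

theorem card_units_eq : Fintype.card Fˣ = Fintype.card F - 1 := by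
  rw [← Nat.card_eq_fintype_card, CfsgLib.Classical.Linear.natCard_units]

theorem card_pair_le (a : ℕ) :
    (Finset.univ.filter fun γ : (Fˣ →* ℂˣ) × (Fˣ →* ℂˣ) => orderOf γ = a).card ≤
      wPair (Fintype.card F - 1) a := by
  obtain ⟨e⟩ := CommGroup.monoidHom_mulEquiv_of_hasEnoughRootsOfUnity Fˣ ℂ
  rw [← card_units_eq]
  exact card_orderOf_pair_le e.toMonoidHom e.injective a

theorem card_dual_eq : Fintype.card (Fˣ →* ℂˣ) = Fintype.card F - 1 := by
  rw [← Nat.card_eq_fintype_card, CommGroup.card_monoidHom_of_hasEnoughRootsOfUnity,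
    CfsgLib.Classical.Linear.natCard_units]

variable {n : ℕ}

theorem kk_ne_zero {q m : ℕ} (h : kk q n m ≠ 0) : m ∣ n := by
  by_contra hd; exact h (if_neg hd)

theorem kk_one (q : ℕ) : kk q n 1 = tupleCard q n n := by simp [kk]

theorem kk_le {q m : ℕ} (hq : 1 ≤ q) : kk q n m ≤ q ^ (n / m) := by
  rw [kk]; split_ifs
  · exact tupleCard_le hq _ _
  · exact Nat.zero_le _

theorem kk_le_half {q m : ℕ} (hq : 1 ≤ q) (hm : 2 ≤ m) : kk q n m ≤ q ^ (n / 2) :=
  (kk_le hq).trans (Nat.pow_le_pow_right hq (Nat.div_le_div_left hm two_pos))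

/-- The right side of the formula for `SL`. -/
def slBound (q n : ℕ) : ℕ := ∑ a ∈ n.divisors, wPair (q - 1) a * kk q n a

/-- The right side of the formula for `PSL`. -/
def pslBound (q n : ℕ) : ℕ :=
  ∑ e ∈ n.divisors, wOne (q - 1) e * ∑ a ∈ n.divisors, wPair (q - 1) a * kk q n (a * e)

theorem sl_le_bound (hn : 1 ≤ n) :
    (Fintype.card F - 1) * Nat.card (ConjClasses (SpecialLinearGroup (Fin n) F)) ≤
      slBound (Fintype.card F) n := by
  rw [card_classes_sl hn]
  refine sum_orderOf_le n.divisors (kk (Fintype.card F) n) _ (fun γ h => Nat.mem_divisors.2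
    ⟨kk_ne_zero h, by omega⟩) fun a _ => card_pair_le a

theorem psl_le_bound (hn : 1 ≤ n) [NeZero n] :
    (Fintype.card F - 1) * (Nat.card (Subgroup.center (SpecialLinearGroup (Fin n) F)) *
        Nat.card (ConjClasses (ProjectiveSpecialLinearGroup (Fin n) F))) ≤
      pslBound (Fintype.card F) n := by
  rw [card_classes_psl hn]
  calc ∑ z : Subgroup.center (SpecialLinearGroup (Fin n) F),
        ∑ γ : (Fˣ →* ℂˣ) × (Fˣ →* ℂˣ), kk (Fintype.card F) n (orderOf γ * orderOf z)
      ≤ ∑ z : Subgroup.center (SpecialLinearGroup (Fin n) F),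
          ∑ a ∈ n.divisors, wPair (Fintype.card F - 1) a * kk (Fintype.card F) n (a * orderOf z) :=
        Finset.sum_le_sum fun z _ => sum_orderOf_le n.divisors
          (fun m => kk (Fintype.card F) n (m * orderOf z)) _ (fun γ h => Nat.mem_divisors.2
            ⟨dvd_of_mul_right_dvd (kk_ne_zero h), by omega⟩) fun a _ => card_pair_le a
    _ ≤ pslBound (Fintype.card F) n := by
        refine sum_orderOf_le n.divisors
          (fun e => ∑ a ∈ n.divisors, wPair (Fintype.card F - 1) a * kk (Fintype.card F) n (a * e)) _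
          (fun z h => ?_) fun e _ => ?_
        · obtain ⟨a, -, ha⟩ := Finset.exists_ne_zero_of_sum_ne_zero h
          exact Nat.mem_divisors.2
            ⟨dvd_of_mul_left_dvd (kk_ne_zero fun e0 => ha (by rw [e0, mul_zero])), by omega⟩
        · rw [← card_units_eq]
          exact card_orderOf_le centScal centScal_injective e

theorem kk_one_le_sl (hn : 1 ≤ n) :
    tupleCard (Fintype.card F) n n ≤
      (Fintype.card F - 1) * Nat.card (ConjClasses (SpecialLinearGroup (Fin n) F)) := by
  rw [card_classes_sl hn, ← kk_one]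
  refine le_of_eq_of_le ?_ (Finset.single_le_sum (fun γ _ => Nat.zero_le _)
    (Finset.mem_univ (1 : (Fˣ →* ℂˣ) × (Fˣ →* ℂˣ))))
  rw [orderOf_one]

theorem kk_one_le_psl (hn : 1 ≤ n) [NeZero n] :
    tupleCard (Fintype.card F) n n ≤ (Fintype.card F - 1) *
      (Nat.card (Subgroup.center (SpecialLinearGroup (Fin n) F)) *
        Nat.card (ConjClasses (ProjectiveSpecialLinearGroup (Fin n) F))) := by
  rw [card_classes_psl hn, ← kk_one]
  refine le_trans ?_ (Finset.single_le_sum (fun z _ => Nat.zero_le _)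
    (Finset.mem_univ (1 : Subgroup.center (SpecialLinearGroup (Fin n) F))))
  refine le_of_eq_of_le ?_ (Finset.single_le_sum (fun γ _ => Nat.zero_le _)
    (Finset.mem_univ (1 : (Fˣ →* ℂˣ) × (Fˣ →* ℂˣ))))
  rw [orderOf_one, orderOf_one, mul_one]

theorem universal_aux {H : Type*} [Fintype H] (g₀ : H) (f : H → ℕ) (B : ℕ)
    (hB : ∀ g, g ≠ g₀ → f g ≤ B) : ∑ g : H, f g ≤ f g₀ + (Fintype.card H - 1) * B := by
  rw [← Finset.add_sum_erase _ _ (Finset.mem_univ g₀)]
  refine Nat.add_le_add_left ((Finset.sum_le_card_nsmul _ _ B fun g hg => hB g (Finset.mem_erase.1 hg).1).trans ?_) _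
  rw [Finset.card_erase_of_mem (Finset.mem_univ g₀), Finset.card_univ, smul_eq_mul]

/-- Crude bound, good for `n ≥ 7`. -/
theorem psl_le_universal (hn : 1 ≤ n) [NeZero n] :
    (Fintype.card F - 1) * (Nat.card (Subgroup.center (SpecialLinearGroup (Fin n) F)) *
        Nat.card (ConjClasses (ProjectiveSpecialLinearGroup (Fin n) F))) ≤
      Fintype.card F ^ n + ((Fintype.card F - 1) ^ 3 - 1) * Fintype.card F ^ (n / 2) := by
  rw [card_classes_psl hn, ← Fintype.sum_prod_type'
    (f := fun (z : Subgroup.center (SpecialLinearGroup (Fin n) F)) (γ : (Fˣ →* ℂˣ) × (Fˣ →* ℂˣ)) =>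
      kk (Fintype.card F) n (orderOf γ * orderOf z))]
  refine (universal_aux (1, 1) _ (Fintype.card F ^ (n / 2)) fun g hg => ?_).trans ?_
  · refine kk_le_half Fintype.card_pos ?_
    by_contra hlt
    have h1 := orderOf_pos g.1
    have h2 := orderOf_pos g.2
    have e1 : orderOf g.1 = 1 := by nlinarith
    have e2 : orderOf g.2 = 1 := by nlinarith
    exact hg (Prod.ext (orderOf_eq_one_iff.1 e1) (orderOf_eq_one_iff.1 e2))
  · refine Nat.add_le_add ?_ (Nat.mul_le_mul_right _ (Nat.sub_le_sub_right ?_ 1))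
    · simp only [orderOf_one, mul_one, kk_one]
      exact tupleCard_le Fintype.card_pos n n
    · rw [Fintype.card_prod, Fintype.card_prod, card_dual_eq]
      have hle : Fintype.card (Subgroup.center (SpecialLinearGroup (Fin n) F)) ≤ Fintype.card F - 1 := by
        rw [← card_units_eq]; exact Fintype.card_le_of_injective _ centScal_injective
      calc _ ≤ (Fintype.card F - 1) * ((Fintype.card F - 1) * (Fintype.card F - 1)) :=
            Nat.mul_le_mul_right _ hle
        _ = _ := by ring

end CfsgLib.SLClassCount
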