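import Cfsg.Agent.SLClassCount.Pairs

/-!
The class numbers of `SL n q` and `PSL n q` as sums of class numbers of smaller general linear
groups.
-/

set_option autoImplicit false

open scoped Classical

namespace CfsgLib.SLClassCount

open CfsgLib.GLClassCount Matrix

universe u

variable {F : Type u} [Field F] [Fintype F] {n : ℕ}

local notation "π₀" => (Matrix.SpecialLinearGroup.toGL : Matrix.SpecialLinearGroup (Fin n) F →* GL (Fin n) F)

omit [Fintype F] in
theorem det_toGL (x : SpecialLinearGroup (Fin n) F) :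
    Matrix.GeneralLinearGroup.det (π₀ x) = 1 :=
  CfsgLib.Classical.Linear.mem_range_toGL.1 ⟨x, rfl⟩

theorem slPairs_eq_card (μ : Fˣ) :
    slPairs n μ = (Finset.univ.filter fun p : SpecialLinearGroup (Fin n) F × SpecialLinearGroup (Fin n) F =>
      π₀ p.1 * π₀ p.2 = scal n μ * (π₀ p.2 * π₀ p.1)).card := by
  rw [slPairs]
  symm
  refine Finset.card_bij (fun p _ => (π₀ p.1, π₀ p.2)) (fun p hp => ?_) (fun a _ b _ e => ?_)
    (fun q hq => ?_)
  · exact Finset.mem_filter.2 ⟨mem_zPairs.2 (Finset.mem_filter.1 hp).2, det_toGL _, det_toGL _⟩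
  · exact Prod.ext (SpecialLinearGroup.toGL_injective (congrArg Prod.fst e))
      (SpecialLinearGroup.toGL_injective (congrArg Prod.snd e))
  · obtain ⟨hz, h1, h2⟩ := Finset.mem_filter.1 hq
    obtain ⟨a, ha⟩ := CfsgLib.Classical.Linear.mem_range_toGL.2 h1
    obtain ⟨b, hb⟩ := CfsgLib.Classical.Linear.mem_range_toGL.2 h2
    refine ⟨(a, b), Finset.mem_filter.2 ⟨Finset.mem_univ _, ?_⟩, by rw [ha, hb]⟩
    rw [ha, hb]
    exact mem_zPairs.1 hz

theorem scal_one : scal n (1 : Fˣ) = 1 := map_one _

theorem card_classes_sl (hn : 1 ≤ n) :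
    (Fintype.card F - 1) * Nat.card (ConjClasses (SpecialLinearGroup (Fin n) F)) =
      ∑ γ : (Fˣ →* ℂˣ) × (Fˣ →* ℂˣ), kk (Fintype.card F) n (orderOf γ) := by
  have h := slPairs_eq (F := F) hn 1
  simp only [orderOf_one, mul_one] at h
  have hc : slPairs n (1 : Fˣ) =
      Nat.card (ConjClasses (SpecialLinearGroup (Fin n) F)) * Nat.card (SpecialLinearGroup (Fin n) F) := by
    rw [← card_comm_eq_card_conjClasses_mul_card, slPairs_eq_card, Nat.card_eq_fintype_card,
      Fintype.card_subtype]
    congr 1
    ext p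
    simp only [Finset.mem_filter, Finset.mem_univ, true_and, scal_one, one_mul, ← map_mul,
      SpecialLinearGroup.toGL_injective.eq_iff]
    rfl
  rw [hc, ← mul_assoc, mul_comm] at h
  exact Nat.eq_of_mul_eq_mul_left Nat.card_pos h

/-- The scalar of a central element. -/
noncomputable def centScal [NeZero n] : Subgroup.center (SpecialLinearGroup (Fin n) F) →* Fˣ :=
  (rootsOfUnity (Fintype.card (Fin n)) F).subtype.comp
    (SpecialLinearGroup.center_equiv_rootsOfUnity' (R := F) (0 : Fin n)).toMonoidHom

theorem centScal_injective [NeZero n] : Function.Injective (centScal (F := F) (n := n)) :=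
  fun _ _ h => (SpecialLinearGroup.center_equiv_rootsOfUnity' (R := F) (0 : Fin n)).injective
    (Subtype.ext h)

theorem scal_centScal [NeZero n] (z : Subgroup.center (SpecialLinearGroup (Fin n) F)) :
    scal n (centScal z) = π₀ z.1 := by
  refine Units.ext ?_
  exact SpecialLinearGroup.scalar_eq_self_of_mem_center z.2 0

theorem card_classes_psl (hn : 1 ≤ n) [NeZero n] :
    (Fintype.card F - 1) * (Nat.card (Subgroup.center (SpecialLinearGroup (Fin n) F)) *
        Nat.card (ConjClasses (ProjectiveSpecialLinearGroup (Fin n) F))) =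
      ∑ z : Subgroup.center (SpecialLinearGroup (Fin n) F),
        ∑ γ : (Fˣ →* ℂˣ) × (Fˣ →* ℂˣ), kk (Fintype.card F) n (orderOf γ * orderOf z) := by
  set Z := Subgroup.center (SpecialLinearGroup (Fin n) F) with hZ
  let SS := SpecialLinearGroup (Fin n) F × SpecialLinearGroup (Fin n) F
  let f : SS → ProjectiveSpecialLinearGroup (Fin n) F × ProjectiveSpecialLinearGroup (Fin n) F :=
    fun p => ((p.1 : SpecialLinearGroup (Fin n) F ⧸ Z), (p.2 : SpecialLinearGroup (Fin n) F ⧸ Z))
  let T : Finset SS := Finset.univ.filter fun p => Commute (f p).1 (f p).2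
  -- lifts of commuting pairs
  have hfib : ∀ a : SpecialLinearGroup (Fin n) F ⧸ Z,
      (Finset.univ.filter fun x : SpecialLinearGroup (Fin n) F => (x : _ ⧸ Z) = a).card = Nat.card Z := by
    intro a
    rw [← Nat.card_eq_finsetCard]
    refine (Nat.card_congr ((Equiv.subtypeEquivRight fun x => ?_).trans
      (QuotientGroup.preimageMkEquivSubgroupProdSet Z {a}))).trans ?_
    · simp
    · simp [Nat.card_prod]
  have hT1 : T.card = (Finset.univ.filter fun c : ProjectiveSpecialLinearGroup (Fin n) F ×
      ProjectiveSpecialLinearGroup (Fin n) F => Commute c.1 c.2).card * (Nat.card Z * Nat.card Z) := by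
    rw [Finset.card_eq_sum_card_fiberwise (f := f) (s := T)
      (t := Finset.univ.filter fun c => Commute c.1 c.2)
      (fun p hp => Finset.mem_filter.2 ⟨Finset.mem_univ _, (Finset.mem_filter.1 hp).2⟩)]
    rw [Finset.sum_const_nat fun c hc => ?_]
    conv_rhs => arg 1; rw [← hfib c.1]
    conv_rhs => arg 2; rw [← hfib c.2]
    rw [← Finset.card_product]
    congr 1
    ext p
    refine Iff.trans ?_ Finset.mem_product.symm
    simp only [T, Finset.mem_filter, Finset.mem_univ, true_and, f]
    constructor
    · rintro ⟨-, e⟩; exact ⟨congrArg Prod.fst e, congrArg Prod.snd e⟩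
    · rintro ⟨e1, e2⟩
      exact ⟨by rw [e1, e2]; exact (Finset.mem_filter.1 hc).2, Prod.ext e1 e2⟩
  -- sort the lifts by their commutator
  have hT2 : T.card = ∑ z : Z, slPairs n (centScal z) := by
    simp only [slPairs_eq_card, scal_centScal, ← map_mul, SpecialLinearGroup.toGL_injective.eq_iff]
    rw [← Finset.card_biUnion]
    · congr 1
      ext p
      simp only [T, f, Finset.mem_filter, Finset.mem_univ, true_and, Finset.mem_biUnion]
      show ((p.1 * p.2 : SpecialLinearGroup (Fin n) F) : _ ⧸ Z) = ((p.2 * p.1 : _) : _ ⧸ Z) ↔ _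
      rw [eq_comm, QuotientGroup.eq]
      constructor
      · intro h
        refine ⟨⟨_, h⟩, ?_⟩
        rw [← Subgroup.mem_center_iff.1 h (p.2 * p.1), mul_inv_cancel_left]
      · rintro ⟨z, hz⟩
        rw [hz, ← Subgroup.mem_center_iff.1 z.2, inv_mul_cancel_left]
        exact z.2
    · intro a _ b _ hab
      rw [Function.onFun, Finset.disjoint_left]
      intro p ha hb
      refine hab (Subtype.ext (mul_right_cancel ((Finset.mem_filter.1 ha).2.symm.trans
        (Finset.mem_filter.1 hb).2)))
  have hc : (Finset.univ.filter fun c : ProjectiveSpecialLinearGroup (Fin n) F ×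
      ProjectiveSpecialLinearGroup (Fin n) F => Commute c.1 c.2).card =
      Nat.card (ConjClasses (ProjectiveSpecialLinearGroup (Fin n) F)) *
        Nat.card (ProjectiveSpecialLinearGroup (Fin n) F) := by
    rw [← card_comm_eq_card_conjClasses_mul_card, Nat.card_eq_fintype_card, Fintype.card_subtype]
  rw [hc] at hT1
  have h := congrArg (fun x => (Fintype.card F - 1) * x) (hT1.symm.trans hT2)
  simp only [Finset.mul_sum] at h
  rw [Finset.sum_congr rfl fun z _ => slPairs_eq hn (centScal z), ← Finset.mul_sum,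
    CfsgLib.Classical.Linear.card_sl_eq_center_mul_psl] at h
  simp only [orderOf_injective centScal centScal_injective] at h
  refine Nat.eq_of_mul_eq_mul_left (Nat.mul_pos (Nat.card_pos (α := Z))
    (Nat.card_pos (α := ProjectiveSpecialLinearGroup (Fin n) F))) ?_
  refine Eq.trans ?_ h
  ring

end CfsgLib.SLClassCount
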