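import Cfsg.Agent.SLClassCount.Sums
import Cfsg.Agent.Chars.Basic
import Cfsg.Agent.Classical.Linear.Card

/-!
Pairs of elements of `GL n q` commuting up to a scalar: the twisted counts with linear characters
of the determinants depend only on the orders involved, giving exact formulas for the class numbers
of `SL n q` and `PSL n q`.
-/

set_option autoImplicit false

open Polynomial
open scoped Classical

namespace CfsgLib.SLClassCount

open CfsgLib.GLClassCount

universe u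

variable {F : Type u} [Field F] [Fintype F] {n : ℕ}

noncomputable scoped instance dualFintype : Fintype (Fˣ →* ℂˣ) :=
  Fintype.ofEquiv Fˣ (Classical.choice
    (CommGroup.monoidHom_mulEquiv_of_hasEnoughRootsOfUnity Fˣ ℂ)).toEquiv.symm

/-- Pairs commuting up to the scalar. -/
noncomputable def zPairs (μ : Fˣ) : Finset (GL (Fin n) F × GL (Fin n) F) :=
  Finset.univ.filter fun p => p.1 * p.2 = scal n μ * (p.2 * p.1)

omit [Fintype F] in
theorem scal_commute (μ : Fˣ) (x : GL (Fin n) F) : scal n μ * x = x * scal n μ := by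
  refine Units.ext ?_
  rw [coe_scal_mul, Units.val_mul]
  show _ = (x : Matrix (Fin n) (Fin n) F) * Matrix.scalar (Fin n) (μ : F)
  rw [Matrix.scalar_apply, ← Matrix.op_smul_eq_mul_diagonal, op_smul_eq_smul]

theorem mem_zPairs {μ : Fˣ} {p : GL (Fin n) F × GL (Fin n) F} :
    p ∈ zPairs μ ↔ p.1 * p.2 = scal n μ * (p.2 * p.1) := by simp [zPairs]

/-- The twisted count. -/
noncomputable def pairSum (n : ℕ) (μ : Fˣ) (α β : Fˣ →* ℂˣ) : ℂ :=
  ∑ p ∈ zPairs (n := n) μ, ((α (Matrix.GeneralLinearGroup.det p.1) *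
    β (Matrix.GeneralLinearGroup.det p.2) : ℂˣ) : ℂ)

theorem pairSum_shearLeft (μ : Fˣ) (α β : Fˣ →* ℂˣ) :
    pairSum n μ (α * β) β = pairSum n μ α β := by
  refine Finset.sum_nbij' (fun p => (p.1, p.2 * p.1)) (fun p => (p.1, p.2 * p.1⁻¹)) ?_ ?_ ?_ ?_ ?_
  · intro p hp
    rw [mem_zPairs] at hp ⊢
    rw [← mul_assoc, hp]; group
  · intro p hp
    rw [mem_zPairs] at hp ⊢
    rw [← mul_assoc, hp]; group
  · intro p _; simp
  · intro p _; simp
  · intro p _
    simp only [MonoidHom.mul_apply, map_mul, Units.val_mul]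
    ring

theorem pairSum_shearRight (μ : Fˣ) (α β : Fˣ →* ℂˣ) :
    pairSum n μ α (α * β) = pairSum n μ α β := by
  refine Finset.sum_nbij' (fun p => (p.1 * p.2, p.2)) (fun p => (p.1 * p.2⁻¹, p.2)) ?_ ?_ ?_ ?_ ?_
  · intro p hp
    rw [mem_zPairs] at hp ⊢
    conv_lhs => rw [hp]
    group
  · intro p hp
    rw [mem_zPairs] at hp ⊢
    have h2 : p.2⁻¹ * (scal n μ * (p.2 * p.1)) = scal n μ * p.1 := by
      rw [← mul_assoc, ← scal_commute]; group
    rw [inv_mul_cancel_right, ← mul_assoc p.2, ← mul_assoc, ← hp, mul_inv_cancel_right]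
  · intro p _; simp
  · intro p _; simp
  · intro p _
    simp only [MonoidHom.mul_apply, map_mul, Units.val_mul]
    ring

theorem pairSum_swap (μ : Fˣ) (β : Fˣ →* ℂˣ) : pairSum n μ 1 β = pairSum n μ β⁻¹ 1 := by
  refine Finset.sum_nbij' (fun p => (p.2⁻¹, p.1)) (fun p => (p.2, p.1⁻¹)) ?_ ?_ ?_ ?_ ?_
  · intro p hp
    rw [mem_zPairs] at hp ⊢
    show p.2⁻¹ * p.1 = scal n μ * (p.1 * p.2⁻¹)
    calc p.2⁻¹ * p.1 = p.2⁻¹ * (p.1 * p.2) * p.2⁻¹ := by group
      _ = p.2⁻¹ * (scal n μ * p.2) * p.1 * p.2⁻¹ := by rw [hp]; group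
      _ = scal n μ * (p.1 * p.2⁻¹) := by rw [scal_commute, inv_mul_cancel_left]; group
  · intro p hp
    rw [mem_zPairs] at hp ⊢
    show p.2 * p.1⁻¹ = scal n μ * (p.1⁻¹ * p.2)
    calc p.2 * p.1⁻¹ = p.1⁻¹ * (p.1 * p.2) * p.1⁻¹ := by group
      _ = p.1⁻¹ * scal n μ * p.2 := by rw [hp]; group
      _ = scal n μ * (p.1⁻¹ * p.2) := by rw [← scal_commute, mul_assoc]
  · intro p _; simp
  · intro p _; simp
  · intro p _; simp

theorem orderOf_shear {A : Type*} [CommGroup A] (α β : A) :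
    orderOf (α * β, β) = orderOf (α, β) ∧ orderOf (α, α * β) = orderOf (α, β) := by
  constructor <;> refine orderOf_eq_orderOf_iff.2 fun k => ?_ <;>
    simp only [Prod.pow_mk, Prod.mk_eq_one, mul_pow]
  · exact ⟨fun h => ⟨by simpa [h.2] using h.1, h.2⟩, fun h => ⟨by simp [h.1, h.2], h.2⟩⟩
  · exact ⟨fun h => ⟨h.1, by simpa [h.1] using h.2⟩, fun h => ⟨h.1, by simp [h.1, h.2]⟩⟩

/-- Euclid's algorithm on pairs in a cyclic group. -/
theorem reduce_aux {A : Type*} [CommGroup A] {B : Type*} (S : A → A → B)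
    (hL : ∀ α β, S (α * β) β = S α β) (hR : ∀ α β, S α (α * β) = S α β)
    (hS : ∀ β, S 1 β = S β⁻¹ 1) (χ : A) : ∀ s a b : ℕ, a + b = s →
      ∃ γ, S (χ ^ a) (χ ^ b) = S γ 1 ∧ orderOf γ = orderOf (χ ^ a, χ ^ b) := by
  intro s
  induction s using Nat.strong_induction_on with
  | _ s ih =>
    intro a b hab
    subst hab
    rcases Nat.eq_zero_or_pos b with rfl | hb
    · exact ⟨χ ^ a, by rw [pow_zero], by rw [Prod.orderOf, pow_zero, orderOf_one, Nat.lcm_one_right]⟩
    rcases Nat.eq_zero_or_pos a with rfl | ha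
    · refine ⟨(χ ^ b)⁻¹, by rw [pow_zero, hS], ?_⟩
      rw [orderOf_inv, Prod.orderOf, pow_zero, orderOf_one, Nat.lcm_one_left]
    rcases le_or_gt b a with hle | hlt
    · obtain ⟨γ, h1, h2⟩ := ih ((a - b) + b) (by omega) (a - b) b rfl
      have e : χ ^ (a - b) * χ ^ b = χ ^ a := by rw [← pow_add, Nat.sub_add_cancel hle]
      refine ⟨γ, ?_, h2.trans ?_⟩
      · rw [← h1, ← e, hL]
      · rw [← e, (orderOf_shear _ _).1]
    · obtain ⟨γ, h1, h2⟩ := ih (a + (b - a)) (by omega) a (b - a) rfl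
      have e : χ ^ a * χ ^ (b - a) = χ ^ b := by rw [← pow_add, Nat.add_sub_cancel' hlt.le]
      refine ⟨γ, ?_, h2.trans ?_⟩
      · rw [← h1, ← e, hR]
      · rw [← e, (orderOf_shear _ _).2]

theorem exists_gen_pow {A : Type*} [Group A] {C : Type*} [Group C] [Finite C] [IsCyclic C]
    (e : A ≃* C) : ∃ χ : A, ∀ α : A, ∃ a : ℕ, χ ^ a = α := by
  obtain ⟨g, hg⟩ := IsCyclic.exists_generator (α := C)
  refine ⟨e.symm g, fun α => ?_⟩
  obtain ⟨a, -, ha⟩ := Finset.mem_image.1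
    ((isOfFinOrder_of_finite g).mem_zpowers_iff_mem_range_orderOf.1 (hg (e α)))
  exact ⟨a, by rw [← map_pow, ha, e.symm_apply_apply]⟩

section
attribute [local irreducible] pairSum

theorem exists_reduce (μ : Fˣ) (α β : Fˣ →* ℂˣ) :
    ∃ γ : Fˣ →* ℂˣ, pairSum n μ α β = pairSum n μ γ 1 ∧ orderOf γ = orderOf (α, β) := by
  obtain ⟨e⟩ := CommGroup.monoidHom_mulEquiv_of_hasEnoughRootsOfUnity Fˣ ℂ
  obtain ⟨χ, hχ⟩ := exists_gen_pow e
  obtain ⟨a, rfl⟩ := hχ α
  obtain ⟨b, rfl⟩ := hχ β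
  exact reduce_aux (A := Fˣ →* ℂˣ) (pairSum n μ) (fun α β => pairSum_shearLeft μ α β)
    (fun α β => pairSum_shearRight μ α β) (fun β => pairSum_swap μ β) χ (a + b) a b rfl

end

theorem card_twisted_centralizer (μ : Fˣ) (x : GL (Fin n) F) :
    (Finset.univ.filter fun y => x * y = scal n μ * (y * x)).card =
      if IsConj x (scal n μ * x) then Nat.card (Subgroup.centralizer ({x} : Set (GL (Fin n) F)))
      else 0 := by
  have key : ∀ y, x * y = scal n μ * (y * x) ↔ y⁻¹ * x * y = scal n μ * x := fun y => by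
    rw [mul_assoc y⁻¹, inv_mul_eq_iff_eq_mul, ← mul_assoc y, ← scal_commute, mul_assoc]
  split_ifs with h
  · obtain ⟨c, hc⟩ := isConj_iff.1 h
    have hy : x * c⁻¹ = scal n μ * (c⁻¹ * x) := (key c⁻¹).2 (by rw [inv_inv, hc])
    have m1 : ∀ w : Subgroup.centralizer ({x} : Set (GL (Fin n) F)),
        w.1 * c⁻¹ ∈ Finset.univ.filter (fun y => x * y = scal n μ * (y * x)) := by
      intro w
      have hw : x * w.1 = w.1 * x := Subgroup.mem_centralizer_iff.1 w.2 x rfl
      refine Finset.mem_filter.2 ⟨Finset.mem_univ _, ?_⟩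
      rw [← mul_assoc, hw, mul_assoc, hy, ← mul_assoc, ← scal_commute]
      group
    have m2 : ∀ y ∈ Finset.univ.filter (fun y => x * y = scal n μ * (y * x)),
        y * c ∈ Subgroup.centralizer ({x} : Set (GL (Fin n) F)) := by
      intro y hy'
      have h1 := (key y).1 (Finset.mem_filter.1 hy').2
      refine Subgroup.mem_centralizer_iff.2 fun x' hx' => ?_
      rw [Set.mem_singleton_iff] at hx'
      subst hx'
      rw [← hc] at h1
      calc x' * (y * c) = y * (y⁻¹ * x' * y) * c := by group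
        _ = y * (c * x' * c⁻¹) * c := by rw [h1]
        _ = y * c * x' := by group
    rw [← Nat.card_eq_finsetCard]
    exact (Nat.card_congr
      { toFun := fun w => ⟨w.1 * c⁻¹, m1 w⟩
        invFun := fun y => ⟨y.1 * c, m2 y.1 y.2⟩
        left_inv := fun w => Subtype.ext (inv_mul_cancel_right _ _)
        right_inv := fun y => Subtype.ext (mul_inv_cancel_right _ _) }).symm
  · rw [Finset.card_eq_zero]
    refine Finset.filter_eq_empty_iff.2 fun y _ hy => h (isConj_iff.2 ⟨y⁻¹, ?_⟩)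
    rw [inv_inv]
    exact (key y).1 hy

theorem pairSum_one (μ : Fˣ) (γ : Fˣ →* ℂˣ) :
    pairSum n μ γ 1 =
      (Nat.card (GL (Fin n) F) : ℂ) * (kk (Fintype.card F) n (orderOf γ * orderOf μ) : ℂ) := by
  rw [← sum_fixed_classes μ γ n, Finset.mul_sum, pairSum, zPairs, Finset.sum_filter,
    Fintype.sum_prod_type]
  have hx : ∀ x : GL (Fin n) F, (∑ y, if x * y = scal n μ * (y * x) then
      ((γ (Matrix.GeneralLinearGroup.det x) * (1 : Fˣ →* ℂˣ) (Matrix.GeneralLinearGroup.det y) : ℂˣ) : ℂ)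
      else 0) =
      (if ∀ k, IsFixed μ (classTup (ConjClasses.mk x) k) then
        ∏ k, chi γ (sgnConst (classTup (ConjClasses.mk x) k)) ^ (k.val + 1) else 0) *
      (Nat.card (Subgroup.centralizer ({x} : Set (GL (Fin n) F))) : ℂ) := by
    intro x
    simp only [MonoidHom.one_apply, mul_one]
    rw [← Finset.sum_filter, Finset.sum_const, card_twisted_centralizer, nsmul_eq_mul, classTup_mk]
    simp only [isConj_scal_iff]
    split_ifs
    · rw [← Finset.prod_congr rfl fun k _ => chi_pow γ _ _, ← chi_prod, ← det_eq_tup,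
        chi_of_unit, mul_comm]
    · simp
  rw [Finset.sum_congr rfl fun x _ => hx x,
    ← Finset.sum_fiberwise Finset.univ (ConjClasses.mk : GL (Fin n) F → _)]
  refine Finset.sum_congr rfl fun C _ => ?_
  obtain ⟨g, rfl⟩ := ConjClasses.mk_surjective C
  rw [← CfsgLib.Chars.card_carrier_mul_card_centralizer g, Nat.cast_mul, mul_assoc,
    mul_comm (Nat.card (Subgroup.centralizer ({g} : Set (GL (Fin n) F))) : ℂ)]
  rw [Finset.sum_eq_card_nsmul (b := (if ∀ k, IsFixed μ (classTup (ConjClasses.mk g) k) then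
        ∏ k, chi γ (sgnConst (classTup (ConjClasses.mk g) k)) ^ (k.val + 1) else 0) *
      (Nat.card (Subgroup.centralizer ({g} : Set (GL (Fin n) F))) : ℂ)) fun x hx' => ?_]
  · rw [nsmul_eq_mul, ← Nat.card_eq_finsetCard]
    congr 2
    exact Nat.card_congr (Equiv.subtypeEquivRight fun x => by
      simp [ConjClasses.mem_carrier_iff_mk_eq])
  · have he := (Finset.mem_filter.1 hx').2
    rw [he]
    congr 2
    have h1 := CfsgLib.Chars.card_carrier_mul_card_centralizer x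
    rw [he, ← CfsgLib.Chars.card_carrier_mul_card_centralizer g] at h1
    exact Nat.eq_of_mul_eq_mul_left (Nat.card_pos_iff.2
      ⟨⟨⟨g, ConjClasses.mem_carrier_mk⟩⟩, inferInstance⟩) h1

theorem sum_dual_apply (u : Fˣ) :
    ∑ α : Fˣ →* ℂˣ, ((α u : ℂˣ) : ℂ) = if u = 1 then ((Fintype.card F - 1 : ℕ) : ℂ) else 0 := by
  have hcard : Fintype.card (Fˣ →* ℂˣ) = Fintype.card F - 1 := by
    rw [← Nat.card_eq_fintype_card, CommGroup.card_monoidHom_of_hasEnoughRootsOfUnity,
      CfsgLib.Classical.Linear.natCard_units]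
  split_ifs with h
  · subst h; simp [hcard]
  · obtain ⟨φ, hφ⟩ := CommGroup.exists_apply_ne_one_of_hasEnoughRootsOfUnity Fˣ ℂ h
    exact sum_hom_units_eq_zero ((Units.coeHom ℂ).comp (MonoidHom.eval u)) fun e => hφ (Units.ext (by
      simpa using DFunLike.congr_fun e φ))

/-- Pairs in `SL` commuting up to the scalar. -/
noncomputable def slPairs (n : ℕ) (μ : Fˣ) : ℕ :=
  ((zPairs (n := n) μ).filter fun p => Matrix.GeneralLinearGroup.det p.1 = 1 ∧
    Matrix.GeneralLinearGroup.det p.2 = 1).card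

theorem slPairs_eq (hn : 1 ≤ n) (μ : Fˣ) :
    (Fintype.card F - 1) * slPairs n μ = Nat.card (Matrix.SpecialLinearGroup (Fin n) F) *
      ∑ γ : (Fˣ →* ℂˣ) × (Fˣ →* ℂˣ), kk (Fintype.card F) n (orderOf γ * orderOf μ) := by
  have : Nonempty (Fin n) := ⟨⟨0, hn⟩⟩
  set N := Fintype.card F - 1 with hN
  have hN0 : 0 < N := by have := Fintype.one_lt_card (α := F); omega
  have h1 : ∑ γ : (Fˣ →* ℂˣ) × (Fˣ →* ℂˣ), pairSum n μ γ.1 γ.2 = (N : ℂ) * N * slPairs n μ := by
    simp only [pairSum]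
    rw [Finset.sum_comm, slPairs, Finset.card_filter, Nat.cast_sum, Finset.mul_sum]
    refine Finset.sum_congr rfl fun p _ => ?_
    simp only [Units.val_mul]
    rw [Fintype.sum_prod_type]
    simp only []
    rw [← Finset.sum_mul_sum, sum_dual_apply, sum_dual_apply]
    split_ifs <;> simp_all <;> ring
  have h2 : ∀ γ : (Fˣ →* ℂˣ) × (Fˣ →* ℂˣ), pairSum n μ γ.1 γ.2 =
      ((Nat.card (GL (Fin n) F) * kk (Fintype.card F) n (orderOf γ * orderOf μ) : ℕ) : ℂ) := by
    intro γ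
    obtain ⟨δ, e1, e2⟩ := exists_reduce (n := n) μ γ.1 γ.2
    rw [e1, pairSum_one, e2, Nat.cast_mul]
  rw [Finset.sum_congr rfl fun γ _ => h2 γ, ← Nat.cast_sum, ← Finset.mul_sum, ← Nat.cast_mul,
    ← Nat.cast_mul, Nat.cast_inj, CfsgLib.Classical.Linear.card_gl_eq,
    CfsgLib.Classical.Linear.natCard_units, ← hN, mul_assoc, mul_assoc] at h1
  exact (Nat.eq_of_mul_eq_mul_left hN0 h1).symm

end CfsgLib.SLClassCount
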