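import Cfsg.Agent.SLClassCount.Realise

/-!
Multiplication of an invertible matrix by a scalar scales the roots of its tuple.
-/

set_option autoImplicit false

open Polynomial

namespace CfsgLib.SLClassCount

open CfsgLib.GLClassCount

universe u

variable {F : Type u} [Field F] {n : ℕ}

/-- Scaling the variable, made monic. -/
noncomputable def sc (μ : Fˣ) (h : F[X]) : F[X] :=
  C ((μ : F) ^ h.natDegree)⁻¹ * h.comp (C (μ : F) * X)

theorem natDegree_comp_scale (μ : Fˣ) (h : F[X]) :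
    (h.comp (C (μ : F) * X)).natDegree = h.natDegree := by
  rw [natDegree_comp, natDegree_C_mul_X _ μ.ne_zero, mul_one]

theorem natDegree_sc (μ : Fˣ) (h : F[X]) : (sc μ h).natDegree = h.natDegree := by
  rw [sc, natDegree_C_mul (inv_ne_zero (pow_ne_zero _ μ.ne_zero)), natDegree_comp_scale]

theorem monic_sc (μ : Fˣ) {h : F[X]} (hh : h.Monic) : (sc μ h).Monic := by
  rw [Monic, sc, leadingCoeff_mul, leadingCoeff_C, leadingCoeff_comp
    (by rw [natDegree_C_mul_X _ μ.ne_zero]; exact one_ne_zero), hh.leadingCoeff, one_mul,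
    leadingCoeff_C_mul_X, inv_mul_cancel₀ (pow_ne_zero _ μ.ne_zero)]

theorem sc_mul (μ : Fˣ) {g h : F[X]} (hg : g.Monic) (hh : h.Monic) :
    sc μ (g * h) = sc μ g * sc μ h := by
  rw [sc, sc, sc, hg.natDegree_mul hh, mul_comp, pow_add, mul_inv, C_mul]
  ring

theorem sc_prod (μ : Fˣ) {ι : Type*} (s : Finset ι) (p : ι → F[X]) (hp : ∀ i ∈ s, (p i).Monic) :
    sc μ (∏ i ∈ s, p i) = ∏ i ∈ s, sc μ (p i) := by
  classical
  induction s using Finset.induction_on with
  | empty => simp [sc]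
  | insert a s ha ih =>
    rw [Finset.prod_insert ha, Finset.prod_insert ha, sc_mul μ (hp a (Finset.mem_insert_self a s))
      (monic_prod_of_monic _ _ fun i hi => hp i (Finset.mem_insert_of_mem hi)),
      ih fun i hi => hp i (Finset.mem_insert_of_mem hi)]

theorem sc_sc (μ ν : Fˣ) (h : F[X]) : sc μ (sc ν h) = sc (μ * ν) h := by
  have e : (h.comp (C (ν : F) * X)).comp (C (μ : F) * X) = h.comp (C ((μ * ν : Fˣ) : F) * X) := by
    rw [comp_assoc, mul_comp, C_comp, X_comp, Units.val_mul, C_mul]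
    congr 1
    ring
  rw [sc, natDegree_sc, sc, sc, mul_comp, C_comp, e, Units.val_mul, mul_pow, mul_inv, ← mul_assoc,
    ← C_mul]

theorem sc_one (h : F[X]) : sc 1 h = h := by simp [sc]

theorem sc_inv_sc (μ : Fˣ) (h : F[X]) : sc μ⁻¹ (sc μ h) = h := by
  rw [sc_sc, inv_mul_cancel, sc_one]

theorem sc_sc_inv (μ : Fˣ) (h : F[X]) : sc μ (sc μ⁻¹ h) = h := by
  rw [sc_sc, mul_inv_cancel, sc_one]

theorem irreducible_sc (μ : Fˣ) {h : F[X]} (hh : h.Monic ∧ Irreducible h) :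
    Irreducible (sc μ h) := by
  have hu : IsUnit (C ((μ : F) ^ h.natDegree)⁻¹) :=
    isUnit_C.2 (inv_ne_zero (pow_ne_zero _ μ.ne_zero)).isUnit
  rw [sc, irreducible_isUnit_mul hu]
  letI : Invertible (μ : F) := μ.invertible
  have h2 : h.comp (C (μ : F) * X) = algEquivCMulXAddC (μ : F) 0 h := by
    simp [algEquivCMulXAddC_apply, comp, aeval_def, eval₂_eq_sum]
  rw [h2]
  exact (MulEquiv.irreducible_iff (algEquivCMulXAddC (μ : F) 0).toMulEquiv).2 hh.2

theorem coeff_zero_sc (μ : Fˣ) (h : F[X]) :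
    (sc μ h).coeff 0 = ((μ : F) ^ h.natDegree)⁻¹ * h.coeff 0 := by
  rw [sc, coeff_C_mul, coeff_zero_eq_eval_zero, eval_comp]
  simp [coeff_zero_eq_eval_zero]

/-- The scalar matrix. -/
def scal (n : ℕ) (μ : Fˣ) : GL (Fin n) F := Units.map (Matrix.scalar (Fin n)).toMonoidHom μ

theorem coe_scal_mul (μ : Fˣ) (x : GL (Fin n) F) :
    ((scal n μ * x : GL (Fin n) F) : Matrix (Fin n) (Fin n) F) =
      (μ : F) • (x : Matrix (Fin n) (Fin n) F) := by
  show Matrix.scalar (Fin n) (μ : F) * _ = _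
  rw [Matrix.scalar_apply, ← Matrix.smul_eq_diagonal_mul]

variable [Fintype F]

theorem imgCard_scal (μ : Fˣ) (x : GL (Fin n) F) (a : F[X]) :
    imgCard (scal n μ * x) a = imgCard x (a.comp (C (μ : F) * X)) := by
  rw [imgCard, imgCard, coe_scal_mul, aeval_comp, map_mul, aeval_C, aeval_X, map_smul,
    ← Algebra.smul_def]

theorem imgCard_C_mul {c : F} (hc : c ≠ 0) (x : GL (Fin n) F) (a : F[X]) :
    imgCard x (C c * a) = imgCard x a := by
  rw [imgCard, imgCard, map_mul, aeval_C, ← Algebra.smul_def]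
  generalize aeval (Matrix.toLin' (x : Matrix (Fin n) (Fin n) F)) a = f
  congr 2
  ext w
  constructor
  · rintro ⟨v, rfl⟩; exact ⟨c • v, by rw [map_smul, LinearMap.smul_apply]⟩
  · rintro ⟨v, rfl⟩; exact ⟨c⁻¹ • v, by rw [LinearMap.smul_apply, map_smul, smul_inv_smul₀ hc]⟩

open scoped Classical in
theorem tup_scal (μ : Fˣ) (x : GL (Fin n) F) :
    tup (scal n μ * x) = fun k => sc μ⁻¹ (tup x k) := by
  obtain ⟨ι, _, p, e, hd, he⟩ := tup_spec x
  obtain ⟨κ, _, r, d, hd', he'⟩ := tup_spec (scal n μ * x)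
  have hlev : levelProd n (fun i => sc μ⁻¹ (p i)) e = fun k => sc μ⁻¹ (tup x k) := by
    funext k
    rw [he, levelProd, levelProd, sc_prod _ _ _ fun i _ => (hd.1 i).1]
  rw [he', ← hlev]
  refine levelProd_eq_of_exps (fun i => ⟨(hd'.1 i).1, (hd'.1 i).2.1⟩)
    (fun i => ⟨monic_sc _ (hd.1 i).1, irreducible_sc _ ⟨(hd.1 i).1, (hd.1 i).2.1⟩⟩) fun P j hP => ?_
  have hP' : (sc μ P).Monic ∧ Irreducible (sc μ P) := ⟨monic_sc _ hP.1, irreducible_sc _ hP⟩
  have e1 : (P ^ j).comp (C (μ : F) * X) = C (((μ : F) ^ P.natDegree) ^ j) * sc μ P ^ j := by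
    rw [C_pow, ← mul_pow, pow_comp, sc, ← mul_assoc, ← C_mul,
      mul_inv_cancel₀ (pow_ne_zero _ μ.ne_zero), C_1, one_mul]
  have h1 := imgCard_of_dec hd' hP j
  rw [imgCard_scal, e1, imgCard_C_mul (pow_ne_zero _ (pow_ne_zero _ μ.ne_zero)),
    imgCard_of_dec hd hP' j] at h1
  refine (Nat.pow_right_injective Fintype.one_lt_card h1).symm.trans
    (Finset.sum_congr rfl fun i _ => ?_)
  rw [natDegree_sc]
  have hiff : p i = sc μ P ↔ sc μ⁻¹ (p i) = P :=
    ⟨fun h => by rw [h, sc_inv_sc], fun h => by rw [← h, sc_sc_inv]⟩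
  simp only [hiff]

/-- The polynomial is unchanged by scaling its roots. -/
def IsFixed (μ : Fˣ) (h : F[X]) : Prop := sc μ h = h

theorem isFixed_inv_iff {μ : Fˣ} {h : F[X]} : sc μ⁻¹ h = h ↔ IsFixed μ h :=
  ⟨fun e => by rw [IsFixed]; conv_lhs => rw [← e, sc_sc_inv],
    fun e => by conv_lhs => rw [← show sc μ h = h from e, sc_inv_sc]⟩

theorem isConj_scal_iff (μ : Fˣ) (x : GL (Fin n) F) :
    IsConj x (scal n μ * x) ↔ ∀ k, IsFixed μ (tup x k) := by
  constructor
  · intro h k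
    have h1 := congrFun ((tup_eq_of_isConj h).trans (tup_scal μ x)) k
    exact isFixed_inv_iff.1 h1.symm
  · intro h
    exact isConj_of_tup_eq ((funext fun k => (isFixed_inv_iff.2 (h k)).symm).trans (tup_scal μ x).symm)

omit [Fintype F] in
theorem isFixed_iff_coeff {μ : Fˣ} {h : F[X]} :
    IsFixed μ h ↔ ∀ i, h.coeff i ≠ 0 → (μ : F) ^ i = (μ : F) ^ h.natDegree := by
  have hc : ∀ i, (sc μ h).coeff i = ((μ : F) ^ h.natDegree)⁻¹ * (h.coeff i * (μ : F) ^ i) := fun i => by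
    rw [sc, coeff_C_mul, comp_C_mul_X_coeff]
  rw [IsFixed, Polynomial.ext_iff]
  refine forall_congr' fun i => ?_
  rw [hc, inv_mul_eq_iff_eq_mul₀ (pow_ne_zero _ μ.ne_zero), mul_comm (h.coeff i)]
  by_cases h0 : h.coeff i = 0
  · simp [h0]
  · simp [h0]

end CfsgLib.SLClassCount
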