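import Cfsg.Agent.SLClassCount.Scale

/-!
Character sums over the tuples: the sum of a linear character of the determinant over the classes
of `GL n q` fixed by a scalar is again a class number of a smaller general linear group.
-/

set_option autoImplicit false

open Polynomial
open scoped Classical

namespace CfsgLib.SLClassCount

open CfsgLib.GLClassCount

universe u

variable {F : Type u} [Field F]

/-- A character of the units, extended by zero. -/
noncomputable def chi (β : Fˣ →* ℂˣ) (c : F) : ℂ := if h : c = 0 then 0 else β (Units.mk0 c h)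

theorem chi_mul (β : Fˣ →* ℂˣ) (c d : F) : chi β (c * d) = chi β c * chi β d := by
  by_cases hc : c = 0
  · simp [chi, hc]
  by_cases hd : d = 0
  · simp [chi, hd]
  rw [chi, chi, chi, dif_neg hc, dif_neg hd, dif_neg (mul_ne_zero hc hd), Units.mk0_mul,
    map_mul, Units.val_mul]

theorem chi_one (β : Fˣ →* ℂˣ) : chi β (1 : F) = 1 := by
  rw [chi, dif_neg one_ne_zero, Units.mk0_one, map_one, Units.val_one]

theorem chi_pow (β : Fˣ →* ℂˣ) (c : F) (i : ℕ) : chi β (c ^ i) = chi β c ^ i := by
  induction i with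
  | zero => rw [pow_zero, pow_zero, chi_one]
  | succ i ih => rw [pow_succ, pow_succ, chi_mul, ih]

theorem chi_prod (β : Fˣ →* ℂˣ) {ι : Type*} (s : Finset ι) (f : ι → F) :
    chi β (∏ i ∈ s, f i) = ∏ i ∈ s, chi β (f i) := by
  induction s using Finset.induction_on with
  | empty => simp [chi_one]
  | insert a s ha ih => rw [Finset.prod_insert ha, Finset.prod_insert ha, chi_mul, ih]

theorem chi_of_unit (β : Fˣ →* ℂˣ) (u : Fˣ) : chi β (u : F) = β u := by
  rw [chi, dif_neg u.ne_zero, Units.mk0_val]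

variable [Fintype F]

theorem sum_chi_coeff_zero (β : Fˣ →* ℂˣ) (f : ℕ) :
    ∑ h ∈ goodSet (F := F) (f + 1), chi β (h.coeff 0) =
      if β = 1 then (levelCard (Fintype.card F) (f + 1) : ℂ) else 0 := by
  split_ifs with hβ
  · subst hβ
    rw [Finset.sum_eq_card_nsmul (b := (1 : ℂ)) fun h hh => by
      rw [chi, dif_neg (mem_goodSet.1 hh).2]; simp]
    rw [card_goodSet]
    simp
  · obtain ⟨u, hu⟩ : ∃ u : Fˣ, β u ≠ 1 := by
      by_contra hc; push_neg at hc; exact hβ (MonoidHom.ext hc)
    let T : F[X] → F[X] := fun h => h + C (((u : F) - 1) * h.coeff 0)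
    have hT0 : ∀ h : F[X], (T h).coeff 0 = u * h.coeff 0 := fun h => by
      simp [T]; ring
    have hmem : ∀ h ∈ goodSet (F := F) (f + 1), T h ∈ goodSet (F := F) (f + 1) := fun h hh => by
      obtain ⟨⟨hm, hd⟩, h0⟩ := mem_goodSet.1 hh
      refine mem_goodSet.2 ⟨⟨hm.add_of_left ?_, ?_⟩, ?_⟩
      · exact degree_C_le.trans_lt (by rw [degree_eq_natDegree hm.ne_zero, hd]; exact_mod_cast Nat.succ_pos f)
      · rw [natDegree_add_C, hd]
      · rw [hT0]; exact mul_ne_zero u.ne_zero h0
    have hinj : Set.InjOn T (goodSet (F := F) (f + 1) : Set F[X]) := fun g _ h _ e => by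
      have e0 : g.coeff 0 = h.coeff 0 := mul_left_cancel₀ u.ne_zero (by rw [← hT0, ← hT0, e])
      simpa [T, e0] using e
    have himg : (goodSet (F := F) (f + 1)).image T = goodSet (F := F) (f + 1) :=
      Finset.eq_of_subset_of_card_le (Finset.image_subset_iff.2 hmem)
        (Finset.card_image_of_injOn hinj).ge
    have key : ∑ h ∈ goodSet (F := F) (f + 1), chi β (h.coeff 0) =
        (β u : ℂ) * ∑ h ∈ goodSet (F := F) (f + 1), chi β (h.coeff 0) := by
      conv_lhs => rw [← himg, Finset.sum_image hinj]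
      rw [Finset.mul_sum]
      exact Finset.sum_congr rfl fun h _ => by rw [hT0, chi_mul, chi_of_unit]
    by_contra hne
    exact hu (Units.ext ((mul_eq_right₀ hne).1 key.symm))

/-- The weight of one level. -/
noncomputable def levelSum (μ : Fˣ) (α : Fˣ →* ℂˣ) (i m : ℕ) : ℂ :=
  ∑ h ∈ (goodSet (F := F) m).filter (IsFixed μ), chi α (sgnConst h) ^ i

theorem levelSum_eq (μ : Fˣ) (α : Fˣ →* ℂˣ) (i m : ℕ) :
    levelSum μ α i m = if orderOf μ ∣ m ∧ (m = 0 ∨ orderOf α ∣ i) then
      (levelCard (Fintype.card F) (m / orderOf μ) : ℂ) else 0 := by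
  rcases Nat.eq_zero_or_pos m with rfl | hm
  · have h0 : goodSet (F := F) 0 = {1} := by
      ext p
      rw [mem_goodSet, Finset.mem_singleton]
      refine ⟨fun hp => hp.1.1.natDegree_eq_zero.1 hp.1.2, ?_⟩
      rintro rfl; simp
    simp [levelSum, h0, Finset.filter_singleton, IsFixed, sc, sgnConst, chi_one, levelCard]
  have he : 0 < orderOf μ := orderOf_pos μ
  have hpow : ∀ i, (μ : F) ^ i = (μ : F) ^ m ↔ i ≡ m [MOD orderOf μ] := fun i => by
    rw [← pow_eq_pow_iff_modEq, ← Units.val_pow_eq_pow_val, ← Units.val_pow_eq_pow_val, Units.ext_iff]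
  by_cases hem : orderOf μ ∣ m
  swap
  · rw [if_neg (fun h => hem h.1), levelSum, Finset.sum_eq_zero]
    intro h hh
    obtain ⟨hg, hfix⟩ := Finset.mem_filter.1 hh
    obtain ⟨⟨hmon, hdeg⟩, h0⟩ := mem_goodSet.1 hg
    have := (isFixed_iff_coeff.1 hfix) 0 h0
    rw [hdeg] at this
    exact absurd ((Nat.modEq_zero_iff_dvd).1 ((hpow 0).1 this).symm) hem
  obtain ⟨f, rfl⟩ := hem
  obtain ⟨f', rfl⟩ : ∃ f', f = f' + 1 := ⟨f - 1, by
    rcases Nat.eq_zero_or_pos f with rfl | h
    · simp at hm
    · omega⟩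
  set e := orderOf μ with hedef
  have hbij : levelSum μ α i (e * (f' + 1)) =
      ∑ g ∈ goodSet (F := F) (f' + 1), chi α (sgnConst (expand F e g)) ^ i := by
    rw [levelSum]
    symm
    refine Finset.sum_bij (fun g _ => expand F e g) (fun g hg => ?_)
      (fun g _ h _ ee => expand_injective he ee) (fun h hh => ?_) (fun g _ => rfl)
    · obtain ⟨⟨hmon, hdeg⟩, h0⟩ := mem_goodSet.1 hg
      refine Finset.mem_filter.2 ⟨mem_goodSet.2 ⟨⟨hmon.expand he, by rw [natDegree_expand, hdeg, mul_comm]⟩,
        by rw [coeff_expand he]; simpa using h0⟩, isFixed_iff_coeff.2 fun j hj => ?_⟩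
      rw [natDegree_expand, hdeg, mul_comm]
      rw [coeff_expand he] at hj
      split_ifs at hj with hd
      · exact (hpow j).2 (((Nat.modEq_zero_iff_dvd).2 hd).trans
          ((Nat.modEq_zero_iff_dvd).2 (dvd_mul_right _ _)).symm)
      · exact absurd rfl hj
    · obtain ⟨hg, hfix⟩ := Finset.mem_filter.1 hh
      obtain ⟨⟨hmon, hdeg⟩, h0⟩ := mem_goodSet.1 hg
      have hexp : expand F e (contract e h) = h := by
        refine Polynomial.ext fun j => ?_
        rw [coeff_expand he, coeff_contract he.ne']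
        split_ifs with hd
        · rw [Nat.div_mul_cancel hd]
        · by_contra hne
          have := (isFixed_iff_coeff.1 hfix) j (Ne.symm hne)
          rw [hdeg, hpow] at this
          exact hd ((Nat.modEq_zero_iff_dvd).1 (this.trans ((Nat.modEq_zero_iff_dvd).2 (dvd_mul_right _ _))))
      refine ⟨contract e h, mem_goodSet.2 ⟨⟨?_, ?_⟩, ?_⟩, hexp⟩
      · rw [← monic_expand_iff he, hexp]; exact hmon
      · have hd := congrArg natDegree hexp
        rw [natDegree_expand, hdeg, mul_comm e] at hd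
        exact Nat.eq_of_mul_eq_mul_right he hd
      · rw [coeff_contract he.ne', zero_mul]; exact h0
  rw [hbij, Nat.mul_div_cancel_left _ he]
  have hsum : ∑ g ∈ goodSet (F := F) (f' + 1), chi α (sgnConst (expand F e g)) ^ i =
      chi α ((-1) ^ (e * (f' + 1))) ^ i *
        ∑ g ∈ goodSet (F := F) (f' + 1), chi (α ^ i) (g.coeff 0) := by
    rw [Finset.mul_sum]
    refine Finset.sum_congr rfl fun g hg => ?_
    obtain ⟨⟨hmon, hdeg⟩, h0⟩ := mem_goodSet.1 hg
    rw [sgnConst, natDegree_expand, hdeg, mul_comm (f' + 1), chi_mul, mul_pow, coeff_expand he,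
      if_pos (dvd_zero _), Nat.zero_div]
    congr 1
    rw [chi, chi, dif_neg h0, dif_neg h0, MonoidHom.pow_apply, Units.val_pow_eq_pow_val]
  rw [hsum, sum_chi_coeff_zero]
  by_cases hai : orderOf α ∣ i
  · rw [if_pos (orderOf_dvd_iff_pow_eq_one.1 hai), if_pos ⟨dvd_mul_right _ _, Or.inr hai⟩, chi, dif_neg (pow_ne_zero _ (neg_ne_zero.2 one_ne_zero)),
      ← Units.val_pow_eq_pow_val, ← MonoidHom.pow_apply, orderOf_dvd_iff_pow_eq_one.1 hai]
    simp
  · rw [if_neg (fun h => hai (orderOf_dvd_iff_pow_eq_one.2 h)), mul_zero, if_neg]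
    rintro ⟨-, h | h⟩
    · exact hm.ne' h
    · exact hai h

/-- The sum over tuples. -/
noncomputable def tupSum (μ : Fˣ) (α : Fˣ →* ℂˣ) (n K : ℕ) : ℂ :=
  ∑ g ∈ (tupleSet (F := F) n K).filter (fun g => ∀ k, IsFixed μ (g k)),
    ∏ k, chi α (sgnConst (g k)) ^ (k.val + 1)

theorem tupSum_succ (μ : Fˣ) (α : Fˣ →* ℂˣ) (n K : ℕ) :
    tupSum μ α n (K + 1) = ∑ m ∈ Finset.range (n / (K + 1) + 1),
      levelSum μ α (K + 1) m * tupSum μ α (n - (K + 1) * m) K := by
  rw [tupSum, tupleSet, Finset.filter_biUnion, Finset.sum_biUnion]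
  · refine Finset.sum_congr rfl fun m _ => ?_
    rw [Finset.filter_image, Finset.sum_image]
    · rw [levelSum, tupSum, Finset.sum_mul_sum, ← Finset.sum_product']
      refine Finset.sum_congr ?_ fun x _ => ?_
      · ext ⟨h, g⟩
        simp only [Finset.mem_filter, Finset.mem_product, Fin.forall_fin_succ',
          Fin.snoc_castSucc, Fin.snoc_last]
        tauto
      · rw [Fin.prod_univ_castSucc]
        simp only [Fin.snoc_castSucc, Fin.snoc_last, Fin.val_castSucc, Fin.val_last]
        ring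
    · intro a _ b _ e
      exact Prod.ext (by simpa using congrFun e (Fin.last K))
        (funext fun k => by simpa using congrFun e k.castSucc)
  · intro a _ b _ hab
    rw [Function.onFun, Finset.disjoint_left]
    intro g hga hgb
    simp only [Finset.mem_filter, Finset.mem_image, Finset.mem_product] at hga hgb
    obtain ⟨⟨x, ⟨hx, -⟩, rfl⟩, -⟩ := hga
    obtain ⟨⟨y, ⟨hy, -⟩, e⟩, -⟩ := hgb
    have e1 : y.1 = x.1 := by simpa using congrFun e (Fin.last K)
    exact hab ((mem_goodSet.1 hx).1.2.symm.trans (e1 ▸ (mem_goodSet.1 hy).1.2))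

theorem tupSum_eq (μ : Fˣ) (α : Fˣ →* ℂˣ) {a e : ℕ} (ha : orderOf α = a) (he : orderOf μ = e)
    (ha0 : 0 < a) : ∀ K n : ℕ, tupSum μ α n K =
      if a * e ∣ n then (tupleCard (Fintype.card F) (n / (a * e)) (K / a) : ℂ) else 0 := by
  have he0 : 0 < e := he ▸ orderOf_pos μ
  have hae : 0 < a * e := Nat.mul_pos ha0 he0
  intro K
  induction K with
  | zero =>
    intro n
    rw [tupSum, Nat.zero_div]
    simp only [tupleSet, tupleCard]
    rcases Nat.eq_zero_or_pos n with rfl | hn
    · simp
    · rw [if_neg hn.ne']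
      split_ifs with h1 h2
      · exfalso
        have := Nat.div_pos (Nat.le_of_dvd hn h1) hae
        omega
      · simp
      · simp
  | succ K ih =>
    intro n
    rw [tupSum_succ]
    simp only [ih, levelSum_eq, ha, he]
    by_cases hak : a ∣ K + 1
    swap
    · rw [Finset.sum_eq_single_of_mem 0 (Finset.mem_range.2 (Nat.succ_pos _))]
      · rw [if_pos ⟨dvd_zero _, Or.inl rfl⟩, Nat.zero_div, mul_zero, Nat.sub_zero,
          Nat.succ_div_of_not_dvd hak]
        simp [levelCard]
      · intro m _ hm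
        rw [if_neg (fun h => h.2.elim hm hak), zero_mul]
    rw [Nat.succ_div_of_dvd hak]
    set K' := K / a with hK'
    have hK1 : K + 1 = a * (K' + 1) := by
      rw [← Nat.succ_div_of_dvd hak, Nat.mul_div_cancel' hak]
    by_cases hn : a * e ∣ n
    swap
    · rw [if_neg hn]
      refine Finset.sum_eq_zero fun m hm => ?_
      split_ifs with h1 h2
      · exfalso
        have hle : (K + 1) * m ≤ n := by
          rw [mul_comm]
          exact (Nat.le_div_iff_mul_le (Nat.add_one_pos K)).1 (Nat.lt_succ_iff.1 (Finset.mem_range.1 hm))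
        refine hn ?_
        have h3 : a * e ∣ (K + 1) * m := by
          rw [hK1, mul_assoc]; exact mul_dvd_mul_left a (dvd_mul_of_dvd_right h1.1 _)
        have h4 := Nat.dvd_add h2 h3
        rwa [Nat.sub_add_cancel hle] at h4
      · simp
      · simp
      · simp
    rw [if_pos hn]
    obtain ⟨N, rfl⟩ := hn
    rw [Nat.mul_div_cancel_left _ hae, tupleCard, Nat.cast_sum]
    symm
    refine Finset.sum_bij_ne_zero (fun f _ _ => e * f) (fun f hf _ => ?_)
      (fun f _ _ g _ _ h => Nat.eq_of_mul_eq_mul_left he0 h) (fun m hm hne => ?_) (fun f hf _ => ?_)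
    · rw [Finset.mem_range, Nat.lt_succ_iff, Nat.le_div_iff_mul_le (Nat.add_one_pos K)]
      have := (Nat.le_div_iff_mul_le (Nat.add_one_pos K')).1 (Nat.lt_succ_iff.1 (Finset.mem_range.1 hf))
      rw [hK1]
      calc e * f * (a * (K' + 1)) = a * e * (f * (K' + 1)) := by ring
        _ ≤ a * e * N := Nat.mul_le_mul_left _ this
    · obtain ⟨f, rfl⟩ : e ∣ m := by
        by_contra hc
        exact hne (by rw [if_neg (fun h => hc h.1), zero_mul])
      have hf : f ∈ Finset.range (N / (K' + 1) + 1) := by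
        rw [Finset.mem_range, Nat.lt_succ_iff, Nat.le_div_iff_mul_le (Nat.add_one_pos K')]
        have := (Nat.le_div_iff_mul_le (Nat.add_one_pos K)).1 (Nat.lt_succ_iff.1 (Finset.mem_range.1 hm))
        rw [hK1, show e * f * (a * (K' + 1)) = a * e * (f * (K' + 1)) by ring] at this
        exact Nat.le_of_mul_le_mul_left this hae
      refine ⟨f, hf, ?_, rfl⟩
      rw [if_pos ⟨dvd_mul_right _ _, Or.inr hak⟩, Nat.mul_div_cancel_left _ he0, hK1,
        show a * (K' + 1) * (e * f) = a * e * ((K' + 1) * f) by ring, ← Nat.mul_sub,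
        if_pos (dvd_mul_right _ _), Nat.mul_div_cancel_left _ hae] at hne
      exact_mod_cast hne
    · rw [if_pos ⟨dvd_mul_right _ _, Or.inr hak⟩, Nat.mul_div_cancel_left _ he0, hK1,
        show a * (K' + 1) * (e * f) = a * e * ((K' + 1) * f) by ring, ← Nat.mul_sub,
        if_pos (dvd_mul_right _ _), Nat.mul_div_cancel_left _ hae, Nat.cast_mul]

theorem tupleCard_stable (q : ℕ) : ∀ {n K : ℕ}, n ≤ K → tupleCard q n K = tupleCard q n n := by
  intro n K h
  induction K, h using Nat.le_induction with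
  | base => rfl
  | succ K hK ih => rw [tupleCard_step, if_neg (by omega), add_zero, ih]

/-- The class number of `GL (n / m)`, and zero unless `m ∣ n`. -/
def kk (q n m : ℕ) : ℕ := if m ∣ n then tupleCard q (n / m) (n / m) else 0

theorem sum_fixed_classes (μ : Fˣ) (α : Fˣ →* ℂˣ) (n : ℕ) :
    ∑ C : ConjClasses (GL (Fin n) F),
      (if ∀ k, IsFixed μ (classTup C k) then
        ∏ k, chi α (sgnConst (classTup C k)) ^ (k.val + 1) else 0) =
      (kk (Fintype.card F) n (orderOf α * orderOf μ) : ℂ) := by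
  have h := tupSum_eq μ α rfl rfl (orderOf_pos α) n n
  rw [tupSum, Finset.sum_filter, ← Finset.sum_coe_sort, ← classEquiv.sum_comp] at h
  rw [kk]
  refine h.trans ?_
  split_ifs with hd
  · rw [tupleCard_stable]
    rw [← Nat.div_div_eq_div_mul]
    exact Nat.div_le_self _ _
  · simp

end CfsgLib.SLClassCount
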